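import Cfsg.Agent.H828.E83.Psl
import Cfsg.Agent.H837.E83.NM11

/-!
# S5925 box END: `121` does not divide the order of `H`, `F*(H) ≅ L₂(11)` or `M₁₁` (helper332, for helper64)
-/

set_option autoImplicit false

namespace Cfsg.Agent.H332.E83

open Matrix Cfsg.Agent.H911.SLTwo Cfsg.Agent.H911 Cfsg.Agent.H912.Eleven Cfsg.Agent.H828.E83

/-- `F*(H) ≅ L₂(11)` -/
theorem card_psl {H : Type*} [Group H] [Finite H] {F : Type*} [Field F] [Fintype F] (hF : Fintype.card F = 11)
    (e : Nonempty (↥(Cfsg.generalizedFittingSubgroup H) ≃* ProjectiveSpecialLinearGroup (Fin 2) F)) :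
    ¬ 121 ∣ Nat.card H := by
  have : Fact (Nat.Prime 11) := ⟨by norm_num⟩
  obtain ⟨e⟩ := e
  have e' : ↥(Cfsg.generalizedFittingSubgroup H) ≃* TT :=
    e.trans (LieClassical.FieldTransfer.pslCongr (ZMod.ringEquivOfPrime F (by norm_num) hF)).symm
  have hc : Nat.card ↥(Cfsg.generalizedFittingSubgroup H) = 660 := by
    rw [Nat.card_congr e'.toEquiv]
    exact L211.card_T
  obtain ⟨x, y, t, hD⟩ := exists_dat e'
  have hn : (Cfsg.generalizedFittingSubgroup H).Normal := Lib.GenFitting.genFitting_normal (G := H)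
  have hi : (Cfsg.generalizedFittingSubgroup H).index ∣ 2 := by
    by_cases hS : Cfsg.generalizedFittingSubgroup H = ⊤
    · rw [hS, Subgroup.index_top]
      exact one_dvd _
    have hx : x ∈ Cfsg.generalizedFittingSubgroup H := by rw [← hD.cl]; exact Subgroup.subset_closure (by simp)
    have hy : y ∈ Cfsg.generalizedFittingSubgroup H := by rw [← hD.cl]; exact Subgroup.subset_closure (by simp)
    have ht : t ∈ Cfsg.generalizedFittingSubgroup H := by rw [← hD.cl]; exact Subgroup.subset_closure (by simp)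
    obtain ⟨h, -, hh, -, -, -, hcl⟩ := hD.ext (fun z hz => by
      have hs : IsSimpleGroup ↥(Cfsg.generalizedFittingSubgroup H) := by
        have h1 : IsSimpleGroup TT := Cfsg.Agent.TwoFusion.SLTwoFacts.isSimpleGroup_psl (by rw [ZMod.card]; norm_num)
        exact (MulEquiv.isSimpleGroup_congr e').2 h1
      refine UGT.End.OfFix.centralizer_fstar hs ?_ hz
      intro hc
      have h1 := hc.1.1
      have h2 := congrArg Subtype.val (h1 ⟨y, hy⟩ ⟨x, hx⟩)
      have h3 : y * x = x * y := h2
      have h4 := hD.yx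
      rw [h3, mul_inv_cancel_right] at h4
      apply hD.x1
      have h5 : x ^ 2 = 1 := by
        have : x * x ^ 2 = x * 1 := by rw [← pow_succ', mul_one, ← h4]
        exact mul_left_cancel this
      have h6 : x = x ^ 12 := by rw [pow_eq hD.x11 (a := 12) (b := 1) (by norm_num), pow_one]
      rw [h6, show 12 = 2 * 6 from rfl, pow_mul, h5, one_pow]) hS
    let π : H →* H ⧸ Cfsg.generalizedFittingSubgroup H := QuotientGroup.mk' _
    have h1 : Subgroup.zpowers (π h) = ⊤ := by
      have h2 := congrArg (Subgroup.map π) hcl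
      rw [← MonoidHom.range_eq_map, MonoidHom.range_eq_top.2 (QuotientGroup.mk'_surjective _), MonoidHom.map_closure] at h2
      rw [eq_top_iff, ← h2, Subgroup.closure_le]
      rintro _ ⟨w, rfl | rfl | rfl | rfl, rfl⟩
      · rw [show π w = 1 from (QuotientGroup.eq_one_iff _).2 hx]
        exact one_mem _
      · rw [show π w = 1 from (QuotientGroup.eq_one_iff _).2 hy]
        exact one_mem _
      · rw [show π w = 1 from (QuotientGroup.eq_one_iff _).2 ht]
        exact one_mem _
      · exact Subgroup.mem_zpowers _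
    rw [Subgroup.index, ← Subgroup.card_top, ← h1, Nat.card_zpowers]
    refine orderOf_dvd_of_pow_eq_one ?_
    rw [pow_two, ← map_mul, hh, map_one]
  intro h
  rw [← (Cfsg.generalizedFittingSubgroup H).card_mul_index, hc] at h
  have h2 : 121 ∣ 660 * 2 := h.trans (Nat.mul_dvd_mul_left _ hi)
  norm_num at h2

/-- `F*(H) ≅ M₁₁` -/
theorem card_m11 {H : Type*} [Group H] [Finite H] (hH : Spor.IsoM11 ↥(Cfsg.generalizedFittingSubgroup H)) :
    ¬ 121 ∣ Nat.card H := by
  have h1 := H837.E83.NM11.fst_eq_top hH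
  obtain ⟨e⟩ := hH
  rw [← Subgroup.card_top (G := H), ← h1, Nat.card_congr e.toEquiv, H807.El.card_M11]
  norm_num

end Cfsg.Agent.H332.E83
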